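import Mathlib
import Cfsg.Agent.Zass.Setup
import Cfsg.Agent.Hall.Fitting

/-!
Automorphism groups of solvable groups with a fixed-point-free representation are solvable.
-/

set_option autoImplicit false

namespace CfsgLib.Zass

open CfsgLib.Frob

theorem isSolvable_of_abelian_ker {A B : Type*} [Group A] [Group B] (f : A →* B) [Group.IsSolvable f.range]
    (hab : ∀ x ∈ f.ker, ∀ y ∈ f.ker, x * y = y * x) : Group.IsSolvable A := by
  haveI : Group.IsSolvable f.ker := by
    letI : CommGroup f.ker :=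
      { (inferInstance : Group f.ker) with mul_comm := fun a b => Subtype.ext (hab a a.2 b b.2) }
    infer_instance
  exact Group.isSolvable_of_ker_le_range f.ker.subtype f.rangeRestrict
    (by rw [MonoidHom.ker_rangeRestrict, Subgroup.range_subtype])

theorem isSolvable_mulAut_two {M : Type*} [Group M] [Finite M] (h : LatFpf M) (hM : IsPGroup 2 M) :
    Group.IsSolvable (MulAut M) := by
  haveI : Fact (Nat.Prime 2) := ⟨Nat.prime_two⟩
  rcases h.sylow_cyclic_or_quaternion (P := (⊤ : Subgroup M)) (hM.to_subgroup ⊤) with hc | ⟨-, k, hk, ⟨e⟩⟩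
  · haveI : IsCyclic M := by rwa [← Subgroup.topEquiv.isCyclic]
    exact Group.isSolvable_of_comm fun a b =>
      (IsCyclic.mulAutMulEquiv M).injective (by rw [map_mul, map_mul, mul_comm])
  obtain ⟨a, d, q⟩ := exists_quat hk e
  have hcard : Nat.card M = 2 ^ (k + 2) := by rw [← q.card, Subgroup.card_top]
  rcases Nat.lt_or_ge k 2 with hk1 | hk2
  · exact isSolvable_mulAut_eight h (by rw [hcard, show k = 1 by omega]; norm_num)
  have hfix : ∀ φ : MulAut M, ∀ x ∈ Subgroup.zpowers a, φ x ∈ Subgroup.zpowers a := by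
    intro φ x hx
    obtain ⟨i, rfl⟩ := Subgroup.mem_zpowers_iff.mp hx
    rw [map_zpow]
    refine Subgroup.zpow_mem _ ?_ i
    rcases q.cover (φ a) (Subgroup.mem_top _) with h1 | ⟨i, hi⟩
    · exact h1
    · exfalso
      have h2 := φ.orderOf_eq a
      rw [hi, q.orderOf_refl, q.ord] at h2
      have : 2 ^ 3 ≤ 2 ^ (k + 1) := Nat.pow_le_pow_right two_pos (by omega)
      omega
  let res : MulAut M →* MulAut (Subgroup.zpowers a) :=
    { toFun := fun φ =>
        { toFun := fun x => ⟨φ x, hfix φ x x.2⟩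
          invFun := fun x => ⟨φ.symm x, hfix φ.symm x x.2⟩
          left_inv := fun x => Subtype.ext (φ.symm_apply_apply x)
          right_inv := fun x => Subtype.ext (φ.apply_symm_apply x)
          map_mul' := fun x y => Subtype.ext (map_mul φ (x : M) (y : M)) }
      map_one' := by ext x; rfl
      map_mul' := fun φ ψ => by ext x; rfl }
  haveI : Group.IsSolvable (MulAut (Subgroup.zpowers a)) := Group.isSolvable_of_comm fun a' b' =>
    (IsCyclic.mulAutMulEquiv _).injective (by rw [map_mul, map_mul, mul_comm])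
  haveI : Group.IsSolvable res.range := inferInstance
  refine isSolvable_of_abelian_ker res fun φ hφ ψ hψ => ?_
  have hfa : ∀ θ ∈ res.ker, ∀ i : ℤ, θ (a ^ i) = a ^ i := fun θ hθ i => by
    have := congrArg (fun u : MulAut (Subgroup.zpowers a) =>
      ((u ⟨a ^ i, Subgroup.zpow_mem _ (Subgroup.mem_zpowers a) i⟩ : Subgroup.zpowers a) : M))
      (MonoidHom.mem_ker.mp hθ)
    exact this
  have hd : ∀ θ ∈ res.ker, ∃ i : ℤ, θ d = d * a ^ i := fun θ hθ => by
    rcases q.cover (θ d) (Subgroup.mem_top _) with h1 | h1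
    · exfalso
      obtain ⟨i, hi⟩ := Subgroup.mem_zpowers_iff.mp h1
      apply q.notMem
      rw [← hfa θ hθ i] at hi
      exact Subgroup.mem_zpowers_iff.mpr ⟨i, θ.injective hi⟩
    · exact h1
  obtain ⟨i, hi⟩ := hd φ hφ
  obtain ⟨i', hi'⟩ := hd ψ hψ
  refine MulEquiv.ext fun x => ?_
  have key : (φ * ψ) d = (ψ * φ) d := by
    show φ (ψ d) = ψ (φ d)
    rw [hi', hi, map_mul, map_mul, hfa φ hφ, hfa ψ hψ, hi, hi', mul_assoc, mul_assoc, ← zpow_add, ← zpow_add,
      add_comm i]
  have key' : ∀ m : ℤ, (φ * ψ) (a ^ m) = (ψ * φ) (a ^ m) := fun m => by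
    show φ (ψ (a ^ m)) = ψ (φ (a ^ m))
    rw [hfa ψ hψ, hfa φ hφ, hfa ψ hψ]
  rcases q.cover x (Subgroup.mem_top _) with h1 | ⟨m, rfl⟩
  · obtain ⟨m, rfl⟩ := Subgroup.mem_zpowers_iff.mp h1
    exact key' m
  · rw [map_mul, map_mul, key, key']

theorem isSolvable_mulAut {H : Type*} [Group H] [Finite H] (h : LatFpf H) [Group.IsSolvable H] :
    Group.IsSolvable (MulAut H) := by
  haveI : Finite (MulAut H) := Finite.of_injective (fun φ : MulAut H => (φ : H → H)) DFunLike.coe_injective
  set F := Cfsg.fittingSubgroup H with hF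
  have hCF : Subgroup.centralizer (F : Set H) ≤ F := CfsgLib.Hall.centralizer_fitting_le
  haveI hFc : F.Characteristic := CfsgLib.Components.fittingSubgroup_characteristic
  haveI hFn : Group.IsNilpotent F := CfsgLib.Components.fittingSubgroup_isNilpotent
  have hmap : ∀ φ : MulAut H, ∀ x ∈ F, φ x ∈ F := fun φ x hx =>
    Subgroup.characteristic_iff_map_eq.mp hFc φ ▸ Subgroup.mem_map_of_mem φ.toMonoidHom hx
  let res : MulAut H →* MulAut F :=
    { toFun := fun φ =>
        { toFun := fun x => ⟨φ x, hmap φ x x.2⟩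
          invFun := fun x => ⟨φ.symm x, hmap φ.symm x x.2⟩
          left_inv := fun x => Subtype.ext (φ.symm_apply_apply x)
          right_inv := fun x => Subtype.ext (φ.apply_symm_apply x)
          map_mul' := fun x y => Subtype.ext (map_mul φ (x : H) (y : H)) }
      map_one' := by ext x; rfl
      map_mul' := fun φ ψ => by ext x; rfl }
  haveI : Group.IsSolvable (MulAut F) := by
    haveI : Finite (MulAut F) := Finite.of_injective (fun φ : MulAut F => (φ : F → F)) DFunLike.coe_injective
    have hlatF : LatFpf F := h.comp F.subtype F.subtype_injective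
    have hsyl : ∀ {p : ℕ} [Fact p.Prime] (P : Sylow p F), (P : Subgroup F).Characteristic := by
      intro p _ P
      haveI := hFn
      haveI : (P : Subgroup F).Normal := P.normal_of_normalizerCondition normalizerCondition_of_isNilpotent
      exact P.characteristic_of_normal inferInstance
    -- each Sylow subgroup gives a solvable quotient
    have hstep : ∀ p ∈ (Nat.card F).primeFactors, ∃ n : ℕ, ∀ φ ∈ derivedSeries (MulAut F) n,
        ∀ x : F, ∀ m : ℕ, orderOf x = p ^ m → φ x = x := by
      intro p hp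
      haveI := Fact.mk (Nat.prime_of_mem_primeFactors hp)
      obtain ⟨P⟩ : Nonempty (Sylow p F) := inferInstance
      haveI hPc := hsyl P
      have hm : ∀ φ : MulAut F, ∀ x ∈ (P : Subgroup F), φ x ∈ (P : Subgroup F) := fun φ x hx =>
        Subgroup.characteristic_iff_map_eq.mp hPc φ ▸ Subgroup.mem_map_of_mem φ.toMonoidHom hx
      let r : MulAut F →* MulAut (P : Subgroup F) :=
        { toFun := fun φ =>
            { toFun := fun x => ⟨φ x, hm φ x x.2⟩
              invFun := fun x => ⟨φ.symm x, hm φ.symm x x.2⟩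
              left_inv := fun x => Subtype.ext (φ.symm_apply_apply x)
              right_inv := fun x => Subtype.ext (φ.apply_symm_apply x)
              map_mul' := fun x y => Subtype.ext (map_mul φ (x : F) (y : F)) }
          map_one' := by ext x; rfl
          map_mul' := fun φ ψ => by ext x; rfl }
      have hsol : Group.IsSolvable (MulAut (P : Subgroup F)) := by
        have hlatP := hlatF.comp (P : Subgroup F).subtype (P : Subgroup F).subtype_injective
        rcases eq_or_ne p 2 with rfl | hp2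
        · exact isSolvable_mulAut_two hlatP P.isPGroup'
        · haveI := CfsgLib.RankOneP.isCyclic_of_odd hp2 P.isPGroup' (hlatF.uniqueOrderP P.isPGroup')
          exact Group.isSolvable_of_comm fun a b =>
            (IsCyclic.mulAutMulEquiv _).injective (by rw [map_mul, map_mul, mul_comm])
      obtain ⟨n, hn⟩ := hsol
      refine ⟨n, fun φ hφ x m hx => ?_⟩
      have h1 : r φ = 1 := by
        rw [← Subgroup.mem_bot, ← hn]
        exact map_derivedSeries_le_derivedSeries r n ⟨φ, hφ, rfl⟩
      have hxP : x ∈ (P : Subgroup F) := by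
        haveI : (P : Subgroup F).Normal := inferInstance
        have hp' : IsPGroup p (Subgroup.zpowers x) := IsPGroup.of_card (n := m) (by rw [Nat.card_zpowers, hx])
        have h2 := hp'.to_sup_of_normal_right P.isPGroup'
        exact (P.is_maximal' h2 le_sup_right).le (Subgroup.mem_sup_left (Subgroup.mem_zpowers x))
      exact congrArg (fun u : MulAut (P : Subgroup F) => ((u ⟨x, hxP⟩ : (P : Subgroup F)) : F)) h1
    choose! nf hnf using hstep
    refine ⟨⟨(Nat.card F).primeFactors.sup nf, ?_⟩⟩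
    rw [eq_bot_iff]
    intro φ hφ
    rw [Subgroup.mem_bot]
    let E : Subgroup F := MonoidHom.eqLocus (φ : F →* F) (MonoidHom.id F)
    have hE : E = ⊤ := by
      refine Subgroup.eq_top_of_card_eq E (Nat.dvd_antisymm (Subgroup.card_subgroup_dvd_card E) ?_)
      rw [Nat.dvd_iff_prime_pow_dvd_dvd]
      intro p m hp hm
      haveI := Fact.mk hp
      rcases Nat.eq_zero_or_pos m with rfl | hmpos
      · simp
      have hp' : p ∈ (Nat.card F).primeFactors :=
        Nat.mem_primeFactors.mpr ⟨hp, (dvd_pow_self p hmpos.ne').trans hm, Nat.card_pos.ne'⟩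
      obtain ⟨P⟩ : Nonempty (Sylow p F) := inferInstance
      refine (P.pow_dvd_card_of_pow_dvd_card hm).trans (Subgroup.card_dvd_of_le fun x hx => ?_)
      obtain ⟨l, hl⟩ := IsPGroup.iff_orderOf.mp P.isPGroup' ⟨x, hx⟩
      rw [Subgroup.orderOf_mk] at hl
      exact hnf p hp' φ (derivedSeries_antitone _ (Finset.le_sup hp') hφ) x l hl
    refine MulEquiv.ext fun x => ?_
    exact (show x ∈ E from hE ▸ Subgroup.mem_top x)
  haveI : Group.IsSolvable res.range := inferInstance
  refine isSolvable_of_abelian_ker res fun φ hφ ψ hψ => ?_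
  have hfix : ∀ θ ∈ res.ker, ∀ x ∈ F, θ x = x := fun θ hθ x hx =>
    congrArg (fun u : MulAut F => ((u ⟨x, hx⟩ : F) : H)) (MonoidHom.mem_ker.mp hθ)
  have hder : ∀ θ ∈ res.ker, ∀ x : H, θ x * x⁻¹ ∈ F := by
    intro θ hθ x
    apply hCF
    rw [Subgroup.mem_centralizer_iff]
    intro f hf
    have hfx : x⁻¹ * f * x ∈ F := by
      simpa using Subgroup.Normal.conj_mem (inferInstance : F.Normal) f hf x⁻¹
    have h1 := hfix θ hθ _ hfx
    rw [map_mul, map_mul, map_inv, hfix θ hθ f hf] at h1
    calc f * (θ x * x⁻¹) = θ x * ((θ x)⁻¹ * f * θ x) * x⁻¹ := by group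
      _ = θ x * (x⁻¹ * f * x) * x⁻¹ := by rw [h1]
      _ = θ x * x⁻¹ * f := by group
  refine MulEquiv.ext fun x => ?_
  show φ (ψ x) = ψ (φ x)
  have e1 : φ (ψ x) = (ψ x * x⁻¹) * (φ x * x⁻¹) * x := by
    calc φ (ψ x) = φ ((ψ x * x⁻¹) * x) := by rw [inv_mul_cancel_right]
      _ = (ψ x * x⁻¹) * φ x := by rw [map_mul, hfix φ hφ _ (hder ψ hψ x)]
      _ = _ := by group
  have e2 : ψ (φ x) = (φ x * x⁻¹) * (ψ x * x⁻¹) * x := by
    calc ψ (φ x) = ψ ((φ x * x⁻¹) * x) := by rw [inv_mul_cancel_right]
      _ = (φ x * x⁻¹) * ψ x := by rw [map_mul, hfix ψ hψ _ (hder φ hφ x)]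
      _ = _ := by group
  have hc : (ψ x * x⁻¹) * (φ x * x⁻¹) = (φ x * x⁻¹) * (ψ x * x⁻¹) := by
    have hcen : ψ x * x⁻¹ ∈ Subgroup.centralizer (F : Set H) := by
      rw [Subgroup.mem_centralizer_iff]
      intro f hf
      have hfx : x⁻¹ * f * x ∈ F := by
        simpa using Subgroup.Normal.conj_mem (inferInstance : F.Normal) f hf x⁻¹
      have h1 := hfix ψ hψ _ hfx
      rw [map_mul, map_mul, map_inv, hfix ψ hψ f hf] at h1
      calc f * (ψ x * x⁻¹) = ψ x * ((ψ x)⁻¹ * f * ψ x) * x⁻¹ := by group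
        _ = ψ x * (x⁻¹ * f * x) * x⁻¹ := by rw [h1]
        _ = ψ x * x⁻¹ * f := by group
    exact (Subgroup.mem_centralizer_iff.mp hcen _ (hder φ hφ x)).symm
  rw [e1, e2, hc]

end CfsgLib.Zass
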